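import Mathlib
import Cfsg.Agent.Lib.Helper34.SnB.QSDefs

/-!
S2986, sub-package [QS-DICH] (helper6): `A_E = A_F`, or each block centralizes the `A` of the
other one.
-/

set_option autoImplicit false

namespace Cfsg.Agent.Lib.Helper6.SnB

open Cfsg Cfsg.Agent.Lib.Helper41.SnB Cfsg.Agent.Lib.Helper34.SnB

universe u

variable {G : Type u} [Group G]

theorem nz_le_normalizer {H K : Subgroup G} (h : Nz H K) :
    H ≤ Subgroup.normalizer (K : Set G) := by
  intro x hx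
  rw [Subgroup.mem_normalizer_iff]
  intro k
  constructor
  · intro hk
    exact h x hx k hk
  · intro hk
    have := h x⁻¹ (inv_mem hx) _ hk
    simpa [mul_assoc] using this

theorem cc_symm {p : ℕ} {E F : Subgroup G} (h : CC p E F) : CC p F E := by
  intro f hf e he
  have := inv_mem (h e he f hf)
  simpa [mul_assoc] using this

theorem comm_eq_bot_of_cz {H K : Subgroup G} (h : ∀ x ∈ H, ∀ y ∈ K, x * y = y * x) :
    ⁅H, K⁆ = ⊥ := by
  rw [eq_bot_iff, Subgroup.commutator_le]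
  intro x hx y hy
  rw [commutatorElement_def, h x hx y hy]
  simp

theorem comm_le_of_nz {H K : Subgroup G} (h : Nz K H) : ⁅H, K⁆ ≤ H := by
  rw [Subgroup.commutator_le]
  intro x hx y hy
  rw [commutatorElement_def]
  have h1 : y * x⁻¹ * y⁻¹ ∈ H := h y hy _ (inv_mem hx)
  have h2 : x * y * x⁻¹ * y⁻¹ = x * (y * x⁻¹ * y⁻¹) := by group
  rw [h2]
  exact mul_mem hx h1

/-- One half of the dichotomy: if `D = A_E ⊓ A_F ≤ Z_E` then both commutators vanish. -/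
theorem dich_half (hR : PkgRes.{u}) [Finite G] {p : ℕ} [Fact p.Prime] (E F : Subgroup G)
    (sE : SBlk p E) (fE : BF p E) (fF : BF p F) (hC : CC p E F)
    (hEF : Nz E F)
    (hAE : ⁅Ab p E, F⁆ ≤ Ab p E ⊓ Ab p F) (hAF : ⁅Ab p F, E⁆ ≤ Ab p E ⊓ Ab p F)
    (hD : Ab p E ⊓ Ab p F ≤ Zb p E) :
    ⁅Ab p E, F⁆ = ⊥ ∧ ⁅Ab p F, E⁆ = ⊥ := by
  have hDE : ⁅Ab p E ⊓ Ab p F, E⁆ = ⊥ := by
    rw [eq_bot_iff]
    refine le_trans (Subgroup.commutator_mono hD le_rfl) ?_
    rw [← eq_bot_iff]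
    exact comm_eq_bot_of_cz fE.ZC
  have hnE : E ≤ Subgroup.normalizer (F : Set G) := nz_le_normalizer hEF
  have hAFp : IsPGroup p ↥(Ab p F) := fF.Qp.to_le (fF.AW.trans fF.WQ)
  have hNzEAF : Nz E (Ab p F) := fun e he a ha => fF.nA e (hnE he) a ha
  have h1 : ⁅Ab p F, E⁆ = ⊥ := by
    have h := hR E (Ab p F) sE.res hAFp hNzEAF
    rw [← h, eq_bot_iff, ← hDE]
    exact Subgroup.commutator_mono hAF le_rfl
  refine ⟨?_, h1⟩
  have h2 : ⁅⁅Ab p E, F⁆, E⁆ = ⊥ := by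
    rw [eq_bot_iff, ← hDE]
    exact Subgroup.commutator_mono hAE le_rfl
  have h3 : ⁅⁅F, E⁆, Ab p E⁆ = ⊥ := by
    have hFE : ⁅F, E⁆ ≤ pCore p G := by
      rw [Subgroup.commutator_le]
      intro f hf e he
      rw [commutatorElement_def]
      exact cc_symm hC f hf e he
    rw [eq_bot_iff]
    refine le_trans (Subgroup.commutator_mono hFE le_rfl) ?_
    rw [← eq_bot_iff]
    exact comm_eq_bot_of_cz fE.PA
  have h4 : ⁅⁅E, Ab p E⁆, F⁆ = ⊥ := Subgroup.commutator_commutator_eq_bot_of_rotate h2 h3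
  rw [Subgroup.commutator_comm E (Ab p E), fE.AA] at h4
  exact h4

theorem pkgDich_of (hR : PkgRes.{u}) : PkgDich.{u} := by
  intro G _ _ p _ E F sE sF fE fF hC hEF hFE
  have hnE : E ≤ Subgroup.normalizer (F : Set G) := nz_le_normalizer hEF
  have hnF : F ≤ Subgroup.normalizer (E : Set G) := nz_le_normalizer hFE
  have hnEE : E ≤ Subgroup.normalizer (E : Set G) := Subgroup.le_normalizer
  have hnFF : F ≤ Subgroup.normalizer (F : Set G) := Subgroup.le_normalizer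
  -- invariance
  have hNzFAE : Nz F (Ab p E) := fun f hf a ha => fE.nA f (hnF hf) a ha
  have hNzEAF : Nz E (Ab p F) := fun e he a ha => fF.nA e (hnE he) a ha
  have hNzEAE : Nz E (Ab p E) := fun e he a ha => fE.nA e (hnEE he) a ha
  have hNzFAF : Nz F (Ab p F) := fun f hf a ha => fF.nA f (hnFF hf) a ha
  have hAE : ⁅Ab p E, F⁆ ≤ Ab p E ⊓ Ab p F := by
    refine le_inf (comm_le_of_nz hNzFAE) ?_
    exact le_trans (Subgroup.commutator_mono sE.AV le_rfl) fF.VA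
  have hAF : ⁅Ab p F, E⁆ ≤ Ab p E ⊓ Ab p F := by
    refine le_inf ?_ (comm_le_of_nz hNzEAF)
    exact le_trans (Subgroup.commutator_mono sF.AV le_rfl) fE.VA
  have hNzED : Nz E (Ab p E ⊓ Ab p F) := fun e he a ha =>
    ⟨hNzEAE e he a ha.1, hNzEAF e he a ha.2⟩
  have hNzFD : Nz F (Ab p E ⊓ Ab p F) := fun f hf a ha =>
    ⟨hNzFAE f hf a ha.1, hNzFAF f hf a ha.2⟩
  rcases fE.irr (Ab p E ⊓ Ab p F) inf_le_left hNzED with h1 | h1
  · exact Or.inr (dich_half hR E F sE fE fF hC hEF hAE hAF h1)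
  · rcases fF.irr (Ab p E ⊓ Ab p F) inf_le_right hNzFD with h2 | h2
    · have hAE' : ⁅Ab p F, E⁆ ≤ Ab p F ⊓ Ab p E := by rw [inf_comm]; exact hAF
      have hAF' : ⁅Ab p E, F⁆ ≤ Ab p F ⊓ Ab p E := by rw [inf_comm]; exact hAE
      have h2' : Ab p F ⊓ Ab p E ≤ Zb p F := by rw [inf_comm]; exact h2
      have := dich_half hR F E sF fF fE (cc_symm hC) hFE hAE' hAF' h2'
      exact Or.inr ⟨this.2, this.1⟩
    · exact Or.inl (h1.symm.trans h2)

end Cfsg.Agent.Lib.Helper6.SnB
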