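import Mathlib
import Cfsg.Agent.Lib.Helper34.SnB.QSDefs
import Cfsg.Agent.Lib.Helper85.BB.S2984Core
import Cfsg.Agent.Lib.Helper6.SnB.QSDich

/-!
S2986, sub-package [QS-BF] (helper6): the derived facts `BF p X` on one block `X`.
-/

set_option autoImplicit false

namespace Cfsg.Agent.Lib.Helper6.SnB

open Cfsg Cfsg.Agent.Lib.Helper41.SnB Cfsg.Agent.Lib.Helper34.SnB

universe u

variable {G : Type u} [Group G]

theorem conj_mem_of_mem_normalizer {H : Subgroup G} {g : G}
    (hg : g ∈ Subgroup.normalizer (H : Set G)) : ∀ y ∈ H, g * y * g⁻¹ ∈ H :=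
  fun y hy => (Subgroup.mem_normalizer_iff.mp hg y).mp hy

theorem pCore_isPGroup_bf (p : ℕ) [Fact p.Prime] (G : Type u) [Group G] :
    IsPGroup p ↥(pCore p G) :=
  Sylow.sSup_of_normal _ (fun _ h => h.2) (fun _ h => h.1)

theorem pCore_normal_bf (p : ℕ) (G : Type u) [Group G] : (pCore p G).Normal :=
  Subgroup.sSup_normal _ (fun _ h => h.1)

theorem pkgBF_of (hR : PkgRes.{u}) : PkgBF.{u} := by
  intro G _ _ p _ X sX
  have hQp : IsPGroup p ↥(Qb p X) := Cfsg.Agent.Lib.Helper47.pCoreOf_isPGroup p X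
  have hQX : Qb p X ≤ X := Subgroup.map_subtype_le _
  have hWQ : Wb p X ≤ Qb p X := Cfsg.Agent.Lib.Helper85.BB.omegaOneCenter_le p _
  have hnQ' : Subgroup.normalizer (X : Set G) ≤ Subgroup.normalizer ((Qb p X : Subgroup G) : Set G) :=
    Cfsg.Agent.Lib.Helper47.normalizer_le_normalizer_pCoreOf p X
  have hnW' : Subgroup.normalizer (X : Set G) ≤ Subgroup.normalizer ((Wb p X : Subgroup G) : Set G) :=
    hnQ'.trans (Cfsg.Agent.Lib.Helper85.BB.normalizer_le_normalizer_omegaOneCenter p _)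
  have hnC' : Subgroup.normalizer (X : Set G) ≤
      Subgroup.normalizer ((Subgroup.centralizer (X : Set G) : Subgroup G) : Set G) :=
    Cfsg.Agent.Lib.Helper47.normalizer_le_normalizer_centralizer X
  have hXN : X ≤ Subgroup.normalizer (X : Set G) := Subgroup.le_normalizer
  have hNzXW : Nz X (Wb p X) := fun x hx w hw => conj_mem_of_mem_normalizer (hnW' (hXN hx)) w hw
  have hAW : Ab p X ≤ Wb p X := comm_le_of_nz hNzXW
  have hnA : ∀ g ∈ Subgroup.normalizer (X : Set G), ∀ y ∈ Ab p X, g * y * g⁻¹ ∈ Ab p X :=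
    fun g hg y hy => Cfsg.Agent.Lib.Helper85.BB.commutator_conj_mem (hnW' hg) hg y hy
  have hNzXA : Nz X (Ab p X) := fun x hx a ha => hnA x (hXN hx) a ha
  have hZC : ∀ z ∈ Zb p X, ∀ x ∈ X, z * x = x * z := by
    intro z hz x hx
    exact (Subgroup.mem_centralizer_iff.mp (Subgroup.mem_inf.mp hz).2 x hx).symm
  have hZC' : Zb p X ≤ Subgroup.centralizer (X : Set G) := inf_le_right
  have hWp : IsPGroup p ↥(Wb p X) := hQp.to_le hWQ
  have hAA : ⁅Ab p X, X⁆ = Ab p X := hR X (Wb p X) sX.res hWp hNzXW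
  have hAZ : ¬ Ab p X ≤ Zb p X := by
    intro h
    have h1 : ⁅Ab p X, X⁆ = ⊥ := by
      rw [Subgroup.commutator_eq_bot_iff_le_centralizer]
      exact h.trans hZC'
    rw [hAA] at h1
    have h2 : Wb p X ≤ Subgroup.centralizer (X : Set G) :=
      Subgroup.commutator_eq_bot_iff_le_centralizer.mp h1
    exact sX.WZ (le_inf le_rfl h2)
  have hP : IsPGroup p ↥(pCore p G) := pCore_isPGroup_bf p G
  have hPn : (pCore p G).Normal := pCore_normal_bf p G
  have hVP : Vb p G ≤ pCore p G := Cfsg.Agent.Lib.Helper85.BB.omegaOneCenter_le p _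
  have hVC : Vb p G ≤ Subgroup.centralizer (pCore p G : Set G) :=
    Cfsg.Agent.Lib.Helper85.BB.omegaOneCenter_le_centralizer p _
  have hVn : ∀ g : G, ∀ v ∈ Vb p G, g * v * g⁻¹ ∈ Vb p G := by
    intro g v hv
    have hg : g ∈ Subgroup.normalizer ((pCore p G : Subgroup G) : Set G) := by
      rw [Subgroup.normalizer_eq_top_iff.mpr hPn]
      exact Subgroup.mem_top g
    exact conj_mem_of_mem_normalizer
      (Cfsg.Agent.Lib.Helper85.BB.normalizer_le_normalizer_omegaOneCenter p _ hg) v hv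
  have hNzXV : Nz X (Vb p G) := fun x _ v hv => hVn x v hv
  have hVp : IsPGroup p ↥(Vb p G) := hP.to_le hVP
  refine
    { Qp := hQp
      QX := hQX
      WQ := hWQ
      WcQ := ?_
      AW := hAW
      PA := ?_
      nQ := fun g hg y hy => conj_mem_of_mem_normalizer (hnQ' hg) y hy
      nW := fun g hg y hy => conj_mem_of_mem_normalizer (hnW' hg) y hy
      nZ := ?_
      nA := hnA
      ZC := hZC
      AA := hAA
      AZ := hAZ
      WAZ := fun w hw => sX.coverW (Ab p X) hAW hNzXA hAZ w hw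
      irr := ?_
      VA := ?_ }
  · -- WcQ
    intro w hw q hq
    have h := Cfsg.Agent.Lib.Helper85.BB.omegaOneCenter_le_centralizer p (Qb p X) hw
    exact (Subgroup.mem_centralizer_iff.mp h q hq).symm
  · -- PA
    intro x hx a ha
    have h := hVC (sX.AV ha)
    exact Subgroup.mem_centralizer_iff.mp h x hx
  · -- nZ
    intro g hg y hy
    exact Subgroup.mem_inf.mpr
      ⟨conj_mem_of_mem_normalizer (hnW' hg) y (Subgroup.mem_inf.mp hy).1,
        conj_mem_of_mem_normalizer (hnC' hg) y (Subgroup.mem_inf.mp hy).2⟩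
  · -- irr
    intro Y hYA hNz
    by_cases hYZ : Y ≤ Zb p X
    · exact Or.inl hYZ
    · right
      have hcover := sX.coverW Y (hYA.trans hAW) hNz hYZ
      have h1 : ⁅Wb p X, X⁆ ≤ Y :=
        Cfsg.Agent.Lib.Helper85.BB.comm_le_of_cover hcover hZC' hNz
      exact le_antisymm hYA h1
  · -- VA
    have h1 : ⁅Vb p G, X⁆ ≤ X ⊓ pCore p G := by
      rw [Subgroup.commutator_le]
      intro v hv x hx
      rw [commutatorElement_def]
      have hvP : v ∈ pCore p G := hVP hv
      refine Subgroup.mem_inf.mpr ⟨?_, ?_⟩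
      · have h2 : v * x * v⁻¹ ∈ X := conj_mem_of_mem_normalizer (sX.PN hvP) x hx
        exact mul_mem h2 (inv_mem hx)
      · have h2 : x * v⁻¹ * x⁻¹ ∈ pCore p G := hPn.conj_mem _ (inv_mem hvP) x
        have h3 : v * x * v⁻¹ * x⁻¹ = v * (x * v⁻¹ * x⁻¹) := by group
        rw [h3]
        exact mul_mem hvP h2
    have h2 : ⁅Vb p G, X⁆ ≤ Vb p G := comm_le_of_nz hNzXV
    have h3 : Vb p G ⊓ Qb p X ≤ Wb p X := by
      intro v hv
      obtain ⟨hvV, hvQ⟩ := Subgroup.mem_inf.mp hv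
      have hc : v ∈ Subgroup.centralizer ((Qb p X : Subgroup G) : Set G) := by
        rw [Subgroup.mem_centralizer_iff]
        intro q hq
        exact Subgroup.mem_centralizer_iff.mp (hVC hvV) q (sX.QP hq)
      have hpow : v ^ p = 1 := Cfsg.Agent.Lib.Helper85.BB.omegaOneCenter_pow p _ v hvV
      show v ∈ omegaOne p (Qb p X ⊓ Subgroup.centralizer ((Qb p X : Subgroup G) : Set G))
      exact Subgroup.subset_closure ⟨Subgroup.mem_inf.mpr ⟨hvQ, hc⟩, hpow⟩
    have h4 : ⁅Vb p G, X⁆ ≤ Wb p X := (le_inf h2 (h1.trans sX.EP)).trans h3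
    have h5 := hR X (Vb p G) sX.res hVp hNzXV
    rw [← h5]
    exact Subgroup.commutator_mono h4 le_rfl

end Cfsg.Agent.Lib.Helper6.SnB
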